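import Mathlib

set_option autoImplicit false
open scoped commutatorElement

/-! The exponent of a nilpotent group of class `c` divides the `c`-th power of the exponent of its
centre. -/

namespace Cfsg.Agent.H84.ExpBound

variable {G : Type*} [Group G]

theorem commutator_pow_of_central {H : Type*} [Group H] (X Y : H)
    (hA : ∀ g : H, g * ⁅X, Y⁆ = ⁅X, Y⁆ * g) (j : ℕ) : ⁅X ^ j, Y⁆ = ⁅X, Y⁆ ^ j := by
  induction j with
  | zero => simp
  | succ j ih =>
    have hAj : ∀ g : H, g * ⁅X, Y⁆ ^ j = ⁅X, Y⁆ ^ j * g := by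
      intro g
      have : Commute g ⁅X, Y⁆ := hA g
      exact this.pow_right j
    have e : ⁅X ^ (j + 1), Y⁆ = X * ⁅X ^ j, Y⁆ * X⁻¹ * ⁅X, Y⁆ := by
      rw [commutatorElement_def, commutatorElement_def, commutatorElement_def, pow_succ']
      group
    rw [e, ih, hAj X, mul_assoc (⁅X, Y⁆ ^ j), mul_inv_cancel, mul_one, pow_succ]

theorem pow_mem_upperCentralSeries (m : ℕ) (hZ : ∀ z ∈ Subgroup.center G, z ^ m = 1) :
    ∀ (k : ℕ) (x : G), x ∈ Subgroup.upperCentralSeries G (k + 1) → x ^ m ∈ Subgroup.upperCentralSeries G k := by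
  intro k
  induction k with
  | zero =>
    intro x hx
    rw [zero_add, upperCentralSeries_one] at hx
    rw [hZ x hx]
    exact Subgroup.one_mem _
  | succ k ih =>
    intro x hx
    rw [mem_upperCentralSeries_succ_iff] at hx ⊢
    intro y
    have ha := hx y
    have hcen : ∀ g : G ⧸ Subgroup.upperCentralSeries G k,
        g * ⁅(x : G ⧸ Subgroup.upperCentralSeries G k), (y : G ⧸ Subgroup.upperCentralSeries G k)⁆ =
          ⁅(x : G ⧸ Subgroup.upperCentralSeries G k), (y : G ⧸ Subgroup.upperCentralSeries G k)⁆ * g := by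
      intro g
      induction g using QuotientGroup.induction_on with
      | H g =>
        have h1 := (mem_upperCentralSeries_succ_iff.mp ha) g
        have h2 : ((⁅⁅x, y⁆, g⁆ : G) : G ⧸ Subgroup.upperCentralSeries G k) = 1 :=
          (QuotientGroup.eq_one_iff _).mpr h1
        have h3 : ((⁅⁅x, y⁆, g⁆ : G) : G ⧸ Subgroup.upperCentralSeries G k) =
            ⁅⁅(x : G ⧸ Subgroup.upperCentralSeries G k), (y : G ⧸ Subgroup.upperCentralSeries G k)⁆,
              (g : G ⧸ Subgroup.upperCentralSeries G k)⁆ := rfl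
        rw [h3, commutatorElement_eq_one_iff_mul_comm] at h2
        exact h2.symm
    have h4 := commutator_pow_of_central (x : G ⧸ Subgroup.upperCentralSeries G k)
      (y : G ⧸ Subgroup.upperCentralSeries G k) hcen m
    have h5 : ((⁅x, y⁆ ^ m : G) : G ⧸ Subgroup.upperCentralSeries G k) = 1 :=
      (QuotientGroup.eq_one_iff _).mpr (ih _ ha)
    have h6 : ((⁅x ^ m, y⁆ : G) : G ⧸ Subgroup.upperCentralSeries G k) = 1 := by
      have e1 : ((⁅x ^ m, y⁆ : G) : G ⧸ Subgroup.upperCentralSeries G k) =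
          ⁅(x : G ⧸ Subgroup.upperCentralSeries G k) ^ m, (y : G ⧸ Subgroup.upperCentralSeries G k)⁆ := rfl
      have e2 : ((⁅x, y⁆ ^ m : G) : G ⧸ Subgroup.upperCentralSeries G k) =
          ⁅(x : G ⧸ Subgroup.upperCentralSeries G k), (y : G ⧸ Subgroup.upperCentralSeries G k)⁆ ^ m := rfl
      rw [e1, h4, ← e2, h5]
    exact (QuotientGroup.eq_one_iff _).mp h6

theorem pow_eq_one_of_mem_upperCentralSeries (m : ℕ) (hZ : ∀ z ∈ Subgroup.center G, z ^ m = 1) :
    ∀ (k : ℕ) (x : G), x ∈ Subgroup.upperCentralSeries G k → x ^ (m ^ k) = 1 := by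
  intro k
  induction k with
  | zero =>
    intro x hx
    rw [upperCentralSeries_zero, Subgroup.mem_bot] at hx
    rw [hx, one_pow]
  | succ k ih =>
    intro x hx
    have h1 := ih _ (pow_mem_upperCentralSeries m hZ k x hx)
    rw [pow_succ', pow_mul]
    exact h1

theorem pow_eq_one_of_class (m c : ℕ) (hZ : ∀ z ∈ Subgroup.center G, z ^ m = 1)
    (hc : Subgroup.upperCentralSeries G c = ⊤) (x : G) : x ^ (m ^ c) = 1 :=
  pow_eq_one_of_mem_upperCentralSeries m hZ c x (by rw [hc]; trivial)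

end Cfsg.Agent.H84.ExpBound
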