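import Cfsg.Agent.H84.FusSubn

set_option autoImplicit false

namespace Cfsg.Agent.H84

open Cfsg Cfsg.FusionSystem
open scoped commutatorElement
open Cfsg.Agent.Lib.Helper87.FSBasic Cfsg.Agent.Lib.Helper87.FSSat
  Cfsg.Agent.Lib.Helper87.FSNormal

/-- In a constrained system the largest normal subgroup contains its centralizer. -/
theorem core_centric_of_constrained {Ω : Type*} [Group Ω] {S : Subgroup Ω} [Finite S] {p : ℕ}
    (F : FusionSystem S) (hF : F.IsConstrained p) :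
    F.IsNormal F.core ∧ centralizerIn S F.core ≤ F.core := by
  obtain ⟨hFsat, Q₀, hQ₀n, hQ₀c⟩ := hF
  have hQn : F.IsNormal F.core := Cfsg.Agent.S5145.result F
  have hQ₀Q : Q₀ ≤ F.core := le_sSup hQ₀n
  refine ⟨hQn, ?_⟩
  intro x hx
  apply hQ₀Q
  apply hQ₀c.2 Q₀ (isConj_refl F hQ₀c.1)
  exact ⟨hx.1, Subgroup.centralizer_le (SetLike.coe_subset_coe.mpr hQ₀Q) hx.2⟩

variable {X : Type*} [Group X]

/-- A `p`-element of `P Z(X)` lies in the Sylow subgroup `P`. -/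
theorem mem_sylow_of_mul_center [Finite X] {p : ℕ} [Fact p.Prime] (P : Sylow p X) {a z : X}
    (ha : a ∈ (P : Subgroup X)) (hz : z ∈ Subgroup.center X) {n : ℕ}
    (hy : (a * z) ^ (p ^ n) = 1) : a * z ∈ (P : Subgroup X) := by
  obtain ⟨m, hm⟩ := P.2 ⟨a, ha⟩
  have ham : a ^ (p ^ m) = 1 := congrArg (fun u : ↥(P : Subgroup X) => (u : X)) hm
  have hcomm : Commute a z := Subgroup.mem_center_iff.mp hz a
  have hz1 : z ^ (p ^ (n + m)) = 1 := by
    have h1 : (a * z) ^ (p ^ (n + m)) = 1 := by rw [pow_add, pow_mul, hy, one_pow]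
    have h2 : a ^ (p ^ (n + m)) = 1 := by rw [add_comm, pow_add, pow_mul, ham, one_pow]
    rw [hcomm.mul_pow, h2, one_mul] at h1
    exact h1
  have hzp : IsPGroup p ↥(Subgroup.zpowers z) := by
    rintro ⟨g, hg⟩
    obtain ⟨k, rfl⟩ := Subgroup.mem_zpowers_iff.mp hg
    refine ⟨n + m, Subtype.ext ?_⟩
    show (z ^ k) ^ (p ^ (n + m)) = 1
    rw [← zpow_natCast, ← zpow_mul, mul_comm, zpow_mul, zpow_natCast, hz1, one_zpow]
  have hzn : (Subgroup.zpowers z).Normal := by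
    constructor
    intro g hg x
    have hgc : g ∈ Subgroup.center X := by
      have hle : Subgroup.zpowers z ≤ Subgroup.center X := by
        rw [Subgroup.zpowers_le]; exact hz
      exact hle hg
    have e : x * g * x⁻¹ = g := by
      rw [Subgroup.mem_center_iff.mp hgc x, mul_inv_cancel_right]
    rw [e]
    exact hg
  have hK : IsPGroup p ↥((P : Subgroup X) ⊔ Subgroup.zpowers z) :=
    IsPGroup.to_sup_of_normal_right P.2 hzp
  have heq := P.3 hK le_sup_left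
  have hzP : z ∈ (P : Subgroup X) := by
    rw [← heq]
    exact Subgroup.mem_sup_right (Subgroup.mem_zpowers z)
  exact Subgroup.mul_mem _ ha hzP

/-- If the fusion system of a finite group on a Sylow subgroup is constrained, so is the fusion
system of the quotient by the centre. -/
theorem constrained_center_quot [Finite X] {p : ℕ} [Fact p.Prime] (P : Sylow p X)
    (hF : (groupFusionSystem (P : Subgroup X)).IsConstrained p) :
    (groupFusionSystem
      ((P : Subgroup X).map (QuotientGroup.mk' (Subgroup.center X)))).IsConstrained p := by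
  have hπsurj : Function.Surjective (QuotientGroup.mk' (Subgroup.center X)) :=
    QuotientGroup.mk'_surjective _
  have hker : ∀ x : X, QuotientGroup.mk' (Subgroup.center X) x = 1 ↔ x ∈ Subgroup.center X :=
    fun x => QuotientGroup.eq_one_iff x
  generalize QuotientGroup.mk' (Subgroup.center X) = π at hπsurj hker ⊢
  have hS : IsPGroup p ↥(P : Subgroup X) := P.2
  have hFsat := hF.1
  obtain ⟨hQn, hCQ⟩ := core_centric_of_constrained _ hF
  have hmax : ∀ Y : Subgroup X, (groupFusionSystem (P : Subgroup X)).IsNormal Y →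
      Y ≤ (groupFusionSystem (P : Subgroup X)).core := fun Y hY => le_sSup hY
  generalize (groupFusionSystem (P : Subgroup X)).core = Q at hQn hCQ hmax
  have hQP : Q ≤ (P : Subgroup X) := hQn.1
  have hQsc := stronglyClosed_of_isNormal _ hQn
  -- the preimage of the centralizer of the image of `Q`
  obtain ⟨X₀, hX₀⟩ : ∃ X₀ : Subgroup X, X₀ = (P : Subgroup X) ⊓
      (Subgroup.centralizer ((Q.map π : Subgroup _) : Set _)).comap π := ⟨_, rfl⟩
  obtain ⟨ZP, hZP⟩ : ∃ ZP : Subgroup X, ZP = (P : Subgroup X) ⊓ Subgroup.center X := ⟨_, rfl⟩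
  have hX₀P : X₀ ≤ (P : Subgroup X) := by rw [hX₀]; exact inf_le_left
  have hX₀c : ∀ x ∈ X₀, ∀ q ∈ Q, π q * π x = π x * π q := by
    intro x hx q hq
    rw [hX₀] at hx
    exact Subgroup.mem_centralizer_iff.mp hx.2 (π q) ⟨q, hq, rfl⟩
  have hZPc : ∀ z ∈ ZP, z ∈ Subgroup.center X := by
    intro z hz; rw [hZP] at hz; exact hz.2
  have hZPP : ZP ≤ (P : Subgroup X) := by rw [hZP]; exact inf_le_left
  have hZPQ : ZP ≤ Q := fun z hz =>
    hCQ ⟨hZPP hz, Subgroup.center_le_centralizer _ (hZPc z hz)⟩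
  have hZPX₀ : ZP ≤ X₀ := by
    intro z hz
    rw [hX₀]
    refine ⟨hZPP hz, ?_⟩
    show π z ∈ Subgroup.centralizer _
    rw [(hker z).mpr (hZPc z hz)]
    exact Subgroup.one_mem _
  have h1 : ⁅X₀, Q⁆ ≤ ZP := by
    rw [Subgroup.commutator_le]
    intro x hx q hq
    rw [hZP]
    refine ⟨?_, ?_⟩
    · rw [commutatorElement_def]
      exact Subgroup.mul_mem _ (Subgroup.mul_mem _ (Subgroup.mul_mem _ (hX₀P hx) (hQP hq))
        (Subgroup.inv_mem _ (hX₀P hx))) (Subgroup.inv_mem _ (hQP hq))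
    · apply (hker _).mp
      rw [commutatorElement_def, map_mul, map_mul, map_mul, map_inv, map_inv,
        ← hX₀c x hx q hq]
      group
  have h2 : ⁅X₀, ZP⁆ = ⊥ := by
    rw [Subgroup.commutator_eq_bot_iff_le_centralizer]
    intro x _
    rw [Subgroup.mem_centralizer_iff]
    intro z hz
    exact (Subgroup.mem_center_iff.mp (hZPc z hz) x).symm
  have h3 : ⁅⁅X₀, Q⁆, X₀⁆ = ⊥ := by
    rw [eq_bot_iff, ← h2, Subgroup.commutator_comm X₀ ZP]
    exact Subgroup.commutator_mono h1 le_rfl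
  have h4 : ⁅⁅Q, X₀⁆, X₀⁆ = ⊥ := by
    rw [Subgroup.commutator_comm Q X₀]; exact h3
  have h5 : ⁅⁅X₀, X₀⁆, Q⁆ = ⊥ := Subgroup.commutator_commutator_eq_bot_of_rotate h3 h4
  have hle : ⁅X₀, X₀⁆ ≤ X₀ := by
    rw [Subgroup.commutator_le]
    intro x hx y hy
    rw [commutatorElement_def]
    exact Subgroup.mul_mem _ (Subgroup.mul_mem _ (Subgroup.mul_mem _ hx hy)
      (Subgroup.inv_mem _ hx)) (Subgroup.inv_mem _ hy)
  have h6 : ⁅X₀, X₀⁆ ≤ X₀ ⊓ Q := by
    have hc := Subgroup.commutator_eq_bot_iff_le_centralizer.mp h5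
    intro g hg
    exact ⟨hle hg, hCQ ⟨hX₀P (hle hg), hc hg⟩⟩
  have h7 : ⁅X₀, X₀ ⊓ Q⁆ ≤ ZP := (Subgroup.commutator_mono le_rfl inf_le_right).trans h1
  have hZPsc : (groupFusionSystem (P : Subgroup X)).StronglyClosed ZP := by
    refine ⟨hZPP, ?_⟩
    rintro R hR φ ⟨-, -, g, hg⟩ x
    have hxc := hZPc _ (hR x.2)
    have e : φ x = x := by
      rw [hg, Subgroup.mem_center_iff.mp hxc g, mul_inv_cancel_right]
    rw [e]
    exact hR x.2
  have hX₀sc : (groupFusionSystem (P : Subgroup X)).StronglyClosed X₀ := by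
    refine ⟨hX₀P, ?_⟩
    intro R hR φ hφ x
    rw [hX₀]
    refine ⟨((groupFusionSystem (P : Subgroup X)).le_of_mem hφ).2 x, ?_⟩
    show π (φ x) ∈ Subgroup.centralizer _
    rw [Subgroup.mem_centralizer_iff]
    rintro _ ⟨q, hq, rfl⟩
    obtain ⟨ψ, ⟨-, -, k, hk⟩, hext, hmap⟩ := hQn.2 R φ hφ
    have hq' : q ∈ (Q.subgroupOf (R ⊔ Q)).map ψ := by rw [hmap]; exact hq
    obtain ⟨z, hz, rfl⟩ := hq'
    have hzQ : (z : X) ∈ Q := Subgroup.mem_subgroupOf.mp hz
    have hc := hX₀c x (hR x.2) z hzQ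
    have e1 : φ x = k * (x : X) * k⁻¹ := by
      rw [← hext x, hk]
      rfl
    rw [e1, hk, map_mul, map_mul, map_inv, map_mul, map_mul, map_inv]
    calc π k * π z * (π k)⁻¹ * (π k * π x * (π k)⁻¹)
        = π k * (π z * π x) * (π k)⁻¹ := by group
      _ = π k * (π x * π z) * (π k)⁻¹ := by rw [hc]
      _ = π k * π x * (π k)⁻¹ * (π k * π z * (π k)⁻¹) := by group
  have hX₀Qsc : (groupFusionSystem (P : Subgroup X)).StronglyClosed (X₀ ⊓ Q) :=
    ⟨inf_le_left.trans hX₀P, fun R hR φ hφ x =>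
      ⟨hX₀sc.2 R (hR.trans inf_le_left) φ hφ x, hQsc.2 R (hR.trans inf_le_right) φ hφ x⟩⟩
  have hX₀n : (groupFusionSystem (P : Subgroup X)).IsNormal X₀ := by
    rw [Cfsg.Agent.S5088.result p hS _ hFsat X₀]
    refine ⟨3, ![⊥, ZP, X₀ ⊓ Q, X₀], rfl, rfl, ?_, ?_⟩
    · rw [Fin.monotone_iff_le_succ]
      intro i
      fin_cases i
      · exact bot_le
      · exact le_inf hZPX₀ hZPQ
      · exact inf_le_left
    · intro i
      fin_cases i
      · exact ⟨hZPsc, h2.le⟩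
      · exact ⟨hX₀Qsc, h7⟩
      · exact ⟨hX₀sc, h6⟩
  have hX₀Q : X₀ ≤ Q := hmax _ hX₀n
  -- the image of `Q` is normal
  have hQbn : (groupFusionSystem ((P : Subgroup X).map π)).IsNormal (Q.map π) := by
    refine ⟨Subgroup.map_mono hQP, ?_⟩
    rintro P' φ' ⟨hP'le, hφ'P, g', hg'⟩
    obtain ⟨g, rfl⟩ := hπsurj g'
    have hP₁map : ∀ y' ∈ P', ∃ y ∈ (P : Subgroup X) ⊓ P'.comap π, π y = y' := by
      intro y' hy'
      obtain ⟨a, ha, rfl⟩ := hP'le hy'
      exact ⟨a, ⟨ha, hy'⟩, rfl⟩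
    have hstar : ∀ x ∈ (P : Subgroup X) ⊓ P'.comap π, g * x * g⁻¹ ∈ (P : Subgroup X) := by
      intro x hx
      have h1 : φ' ⟨π x, hx.2⟩ ∈ (P : Subgroup X).map π := hφ'P _
      rw [hg'] at h1
      obtain ⟨a, ha, hae⟩ := h1
      have hz : a⁻¹ * (g * x * g⁻¹) ∈ Subgroup.center X := by
        apply (hker _).mp
        rw [map_mul, map_inv, hae, map_mul, map_mul, map_inv]
        group
      obtain ⟨n, hn⟩ := P.2 ⟨x, hx.1⟩
      have hxn : x ^ (p ^ n) = 1 := congrArg (fun u : ↥(P : Subgroup X) => (u : X)) hn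
      have hy : (a * (a⁻¹ * (g * x * g⁻¹))) ^ (p ^ n) = 1 := by
        rw [mul_inv_cancel_left, conj_pow, hxn, mul_one, mul_inv_cancel]
      have h3 := mem_sylow_of_mul_center P ha hz hy
      rwa [mul_inv_cancel_left] at h3
    have hφ : conjHom ((P : Subgroup X) ⊓ P'.comap π) g ∈
        (groupFusionSystem (P : Subgroup X)).Hom ((P : Subgroup X) ⊓ P'.comap π) :=
      ⟨inf_le_left, fun x => hstar x x.2, g, fun x => rfl⟩
    obtain ⟨ψ, ⟨hψle, hψP, k, hk⟩, hext, hmap⟩ := hQn.2 _ _ hφ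
    have hlift : ∀ z' ∈ P' ⊔ Q.map π, ∃ z ∈ ((P : Subgroup X) ⊓ P'.comap π) ⊔ Q, π z = z' := by
      intro z' hz'
      have hle2 : P' ⊔ Q.map π ≤ (((P : Subgroup X) ⊓ P'.comap π) ⊔ Q).map π := by
        rw [Subgroup.map_sup]
        refine sup_le_sup_right ?_ _
        intro y' hy'
        obtain ⟨y, hy, rfl⟩ := hP₁map y' hy'
        exact ⟨y, hy, rfl⟩
      obtain ⟨z, hz, rfl⟩ := hle2 hz'
      exact ⟨z, hz, rfl⟩
    refine ⟨conjHom (P' ⊔ Q.map π) (π k),
      ⟨sup_le hP'le (Subgroup.map_mono hQP), ?_, π k, fun z => rfl⟩, ?_, ?_⟩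
    · intro z'
      obtain ⟨z, hz, hzz⟩ := hlift z' z'.2
      show π k * ((z' : ↥(P' ⊔ Q.map π)) : X ⧸ Subgroup.center X) * (π k)⁻¹ ∈ _
      rw [← hzz, ← map_inv, ← map_mul, ← map_mul]
      refine ⟨_, ?_, rfl⟩
      have h2 := hψP ⟨z, hz⟩
      rw [hk] at h2
      exact h2
    · intro x'
      obtain ⟨x, hx, hxx⟩ := hP₁map x' x'.2
      show π k * ((x' : ↥P') : X ⧸ Subgroup.center X) * (π k)⁻¹ = φ' x'
      rw [hg', ← hxx]
      have h1 := hext ⟨x, hx⟩
      rw [hk] at h1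
      have h2 : k * x * k⁻¹ = g * x * g⁻¹ := h1
      have h3 := congrArg π h2
      rw [map_mul, map_mul, map_inv, map_mul, map_mul, map_inv] at h3
      exact h3
    · apply le_antisymm
      · rintro _ ⟨z', hz', rfl⟩
        have hzQ : ((z' : ↥(P' ⊔ Q.map π)) : X ⧸ Subgroup.center X) ∈ Q.map π :=
          Subgroup.mem_subgroupOf.mp hz'
        obtain ⟨q, hq, hqz⟩ := hzQ
        show π k * ((z' : ↥(P' ⊔ Q.map π)) : X ⧸ Subgroup.center X) * (π k)⁻¹ ∈ Q.map π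
        rw [← hqz, ← map_inv, ← map_mul, ← map_mul]
        refine ⟨_, ?_, rfl⟩
        have h2 : ψ ⟨q, Subgroup.mem_sup_right hq⟩ ∈
            (Q.subgroupOf (((P : Subgroup X) ⊓ P'.comap π) ⊔ Q)).map ψ :=
          ⟨_, Subgroup.mem_subgroupOf.mpr hq, rfl⟩
        rw [hmap, hk] at h2
        exact h2
      · rintro _ ⟨q, hq, rfl⟩
        have hq' : q ∈ (Q.subgroupOf (((P : Subgroup X) ⊓ P'.comap π) ⊔ Q)).map ψ := by
          rw [hmap]; exact hq
        obtain ⟨z₀, hz₀, rfl⟩ := hq'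
        have hz₀Q : (z₀ : X) ∈ Q := Subgroup.mem_subgroupOf.mp hz₀
        have hmem : π (z₀ : X) ∈ P' ⊔ Q.map π := Subgroup.mem_sup_right ⟨_, hz₀Q, rfl⟩
        refine ⟨⟨π (z₀ : X), hmem⟩, Subgroup.mem_subgroupOf.mpr ⟨_, hz₀Q, rfl⟩, ?_⟩
        show π k * π (z₀ : X) * (π k)⁻¹ = π (ψ z₀)
        rw [hk, map_mul, map_mul, map_inv]
  have hsat : (groupFusionSystem ((P : Subgroup X).map π)).IsSaturated p :=
    Cfsg.Agent.S5076.result p (P.mapSurjective hπsurj)
  refine ⟨hsat, Q.map π, hQbn, Subgroup.map_mono hQP, ?_⟩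
  rintro Q'' ⟨φ', hφ', hrange⟩
  have hsc := stronglyClosed_of_isNormal _ hQbn
  have hle' : φ'.range ≤ Q.map π := by
    rintro _ ⟨x, rfl⟩
    exact hsc.2 _ le_rfl φ' hφ' x
  have hfinq : Finite (X ⧸ Subgroup.center X) := inferInstance
  have heq : φ'.range = Q.map π :=
    Subgroup.eq_of_le_of_card_ge hle' (card_range _ hφ').ge
  rw [← hrange, heq]
  rintro x' ⟨hx'P, hx'c⟩
  obtain ⟨x, hx, rfl⟩ := hx'P
  refine ⟨x, hX₀Q ?_, rfl⟩
  rw [hX₀]
  exact ⟨hx, hx'c⟩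

end Cfsg.Agent.H84
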