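import Mathlib

set_option autoImplicit false

/-! An automorphism `t` of order `p` of an abelian group `U` with `[U, t; c] = 1`,
`c ≤ n (p - 1) + 1`, fixes every `p ^ n`-th power. -/

namespace Cfsg.Agent.H84.PowId

open Finset

theorem exists_rel {A : Type*} [CommRing A] (p : ℕ) [hp : Fact p.Prime] (a : A)
    (h : (a + 1) ^ p = 1) : ∃ G : A, a ^ p + p * a * (1 + a * G) = 0 := by
  have h1 := add_pow_prime_eq hp.out a 1
  have h1mem : 1 ∈ Ioo 0 p := mem_Ioo.mpr ⟨zero_lt_one, hp.out.one_lt⟩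
  rw [← Finset.add_sum_erase _ _ h1mem] at h1
  refine ⟨∑ k ∈ (Ioo 0 p).erase 1, a ^ (k - 2) * ↑(p.choose k / p), ?_⟩
  have h2 : ∑ k ∈ (Ioo 0 p).erase 1, a ^ (k - 1) * 1 ^ (p - k - 1) * (↑(p.choose k / p) : A) =
      a * ∑ k ∈ (Ioo 0 p).erase 1, a ^ (k - 2) * ↑(p.choose k / p) := by
    rw [Finset.mul_sum]
    apply Finset.sum_congr rfl
    intro k hk
    have hk2 : 2 ≤ k := by
      have := Finset.mem_erase.mp hk
      have h3 := (mem_Ioo.mp this.2).1
      omega
    have : k - 1 = (k - 2) + 1 := by omega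
    rw [this, pow_succ, one_pow]; ring
  rw [h2] at h1
  have h3 : (p.choose 1 / p : ℕ) = 1 := by rw [Nat.choose_one_right, Nat.div_self hp.out.pos]
  rw [h] at h1
  simp only [h3, one_pow, pow_zero, Nat.sub_self, Nat.cast_one, mul_one] at h1
  linear_combination -h1

theorem pow_mul_eq_zero {A : Type*} [CommRing A] (p n c : ℕ) [hp : Fact p.Prime] (a : A)
    (h : (a + 1) ^ p = 1) (hc : a ^ c = 0) (hcn : c ≤ n * (p - 1) + 1) : (p : A) ^ n * a = 0 := by
  obtain ⟨G, hG⟩ := exists_rel p a h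
  have hnil : IsNilpotent (a * G) := ⟨c, by rw [mul_pow, hc, zero_mul]⟩
  obtain ⟨ε, hε⟩ := hnil.isUnit_one_add
  have hrel : a ^ p = -(p * a * ε) := by rw [hε]; linear_combination hG
  have hp1 : 1 ≤ p := hp.out.pos
  have hk : ∀ k : ℕ, a ^ (k * (p - 1) + 1) = (-(p : A) * ε) ^ k * a := by
    intro k
    induction k with
    | zero => simp
    | succ k ih =>
      have e : (k + 1) * (p - 1) + 1 = (k * (p - 1) + 1) + (p - 1) := by ring
      have e2 : a * a ^ (p - 1) = a ^ p := by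
        rw [← pow_succ']; congr 1; omega
      rw [e, pow_add, ih, mul_assoc, e2, hrel, pow_succ]; ring
  have h0 : a ^ (n * (p - 1) + 1) = 0 := pow_eq_zero_of_le hcn hc
  rw [hk n] at h0
  have h1 : (↑(ε ^ n) : A) * ((-1) ^ n * ((p : A) ^ n * a)) = 0 := by
    rw [← h0]; push_cast; ring
  have h2 := (Units.mul_right_eq_zero (ε ^ n)).mp h1
  rcases neg_one_pow_eq_or A n with h3 | h3
  · rw [h3, one_mul] at h2; exact h2
  · rw [h3, neg_one_mul, neg_eq_zero] at h2; exact h2

open Polynomial in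
theorem ring_pow_mul_eq_zero {R : Type*} [Ring R] (p n c : ℕ) [hp : Fact p.Prime] (x : R)
    (h : (x + 1) ^ p = 1) (hc : x ^ c = 0) (hcn : c ≤ n * (p - 1) + 1) : (p : R) ^ n * x = 0 := by
  have key := pow_mul_eq_zero p n c
    (Ideal.Quotient.mk (RingHom.ker (aeval x : ℤ[X] →ₐ[ℤ] R).toRingHom) (X : ℤ[X])) ?_ ?_ hcn
  · rw [← map_natCast (Ideal.Quotient.mk (RingHom.ker (aeval x : ℤ[X] →ₐ[ℤ] R).toRingHom)),
      ← map_pow, ← map_mul, Ideal.Quotient.eq_zero_iff_mem, RingHom.mem_ker] at key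
    simpa using key
  · rw [← map_one (Ideal.Quotient.mk (RingHom.ker (aeval x : ℤ[X] →ₐ[ℤ] R).toRingHom)),
      ← map_add, ← map_pow, ← sub_eq_zero, ← map_sub,
      Ideal.Quotient.eq_zero_iff_mem, RingHom.mem_ker]
    simp [h]
  · rw [← map_pow, Ideal.Quotient.eq_zero_iff_mem, RingHom.mem_ker]
    simp [hc]

theorem fix_pow {U : Type*} [CommGroup U] (t : U →* U) (p n c : ℕ) [Fact p.Prime]
    (htp : ∀ u, t^[p] u = u) (L : ℕ → Set U) (h0 : ∀ u, u ∈ L 0)
    (hstep : ∀ k u, u ∈ L k → t u * u⁻¹ ∈ L (k + 1)) (hc : ∀ u ∈ L c, u = 1)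
    (hcn : c ≤ n * (p - 1) + 1) : ∀ u, t (u ^ (p ^ n)) = u ^ (p ^ n) := by
  obtain ⟨T, hTdef⟩ : ∃ T : AddMonoid.End (Additive U),
      ∀ v, T v = Additive.ofMul (t (Additive.toMul v)) :=
    ⟨MonoidHom.toAdditive t, fun v => rfl⟩
  have hmul : ∀ (f g : AddMonoid.End (Additive U)) (v : Additive U), (f * g) v = f (g v) :=
    fun _ _ _ => rfl
  have hT : ∀ (k : ℕ) (v : Additive U),
      (T ^ k) v = Additive.ofMul (t^[k] (Additive.toMul v)) := by
    intro k
    induction k with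
    | zero => intro v; rfl
    | succ k ih =>
      intro v
      rw [pow_succ', hmul, ih, hTdef, Function.iterate_succ_apply']
      rfl
  have hsub : ∀ w : Additive U, Additive.toMul ((T - 1) w) =
      t (Additive.toMul w) * (Additive.toMul w)⁻¹ := by
    intro w
    have : (T - 1) w = T w - w := rfl
    rw [this, hTdef, toMul_sub, div_eq_mul_inv]
    rfl
  have hX : ∀ (k : ℕ) (v : Additive U), Additive.toMul (((T - 1) ^ k) v) ∈ L k := by
    intro k
    induction k with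
    | zero => intro v; exact h0 _
    | succ k ih =>
      intro v
      rw [pow_succ', hmul, hsub]
      exact hstep k _ (ih v)
  have h1 : (T - 1 + 1) ^ p = 1 := by
    rw [sub_add_cancel]
    ext v
    rw [hT, htp]
    rfl
  have h2 : (T - 1) ^ c = 0 := by
    ext v
    have := hc _ (hX c v)
    exact this
  have h3 := ring_pow_mul_eq_zero p n c _ h1 h2 hcn
  intro u
  have h4 := congrArg (fun f : AddMonoid.End (Additive U) => f (Additive.ofMul u)) h3
  have h4' : ((p : AddMonoid.End (Additive U)) ^ n * (T - 1)) (Additive.ofMul u) = 0 := h4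
  rw [hmul, ← Nat.cast_pow, AddMonoid.End.natCast_apply] at h4'
  replace h4 := h4'
  have h5 := congrArg Additive.toMul h4
  rw [toMul_nsmul, hsub] at h5
  have h6 : (t u * u⁻¹) ^ (p ^ n) = 1 := h5
  rw [mul_pow, inv_pow, mul_inv_eq_one] at h6
  rw [map_pow, h6]

end Cfsg.Agent.H84.PowId
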