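import Cfsg.Agent.H84.FusEss2
import Cfsg.Agent.H84.FusNormal
import Cfsg.Agent.H84.PowId
import Cfsg.Agent.Lib.Helper64.Sylow
import Cfsg.Agent.S5087
import Cfsg.Prelude.Def_PLocal

set_option autoImplicit false
open Cfsg Cfsg.FusionSystem
open scoped commutatorElement

/-! If `S` has class at most `n (p - 1) + 1`, then `℧^n(Z(S))` is normal in every saturated
fusion system over `S`. -/

namespace Cfsg.Agent.H84.FusClass

variable {Ω : Type*} [Group Ω]

/-- `℧^n(Z(R))` as a subgroup of `R`. -/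
def agemoZ (p n : ℕ) (R : Subgroup Ω) : Subgroup R :=
  Subgroup.closure {y : R | ∃ u ∈ Subgroup.center ↥R, y = u ^ (p ^ n)}

theorem agemoZ_invariant (p n : ℕ) (R : Subgroup Ω) (α : MulAut R) :
    ∀ w ∈ agemoZ p n R, α w ∈ agemoZ p n R := by
  intro w hw
  have hle : agemoZ p n R ≤ (agemoZ p n R).comap α.toMonoidHom := by
    show Subgroup.closure _ ≤ _
    rw [Subgroup.closure_le]
    rintro _ ⟨u, hu, rfl⟩
    show α (u ^ (p ^ n)) ∈ agemoZ p n R
    rw [map_pow]
    apply Subgroup.subset_closure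
    refine ⟨α u, ?_, rfl⟩
    have := Subgroup.characteristic_iff_map_eq.mp
      (inferInstance : (Subgroup.center ↥R).Characteristic) α
    rw [← this]
    exact ⟨u, hu, rfl⟩
  exact hle hw

theorem mem_agemoZ_of_mem {S : Subgroup Ω} (p n : ℕ) {R : Subgroup Ω} (hRS : R ≤ S)
    (hZR : S ⊓ Subgroup.centralizer (S : Set Ω) ≤ R) (x : R)
    (hx : (x : Ω) ∈ powerClosure p n (S ⊓ Subgroup.centralizer (S : Set Ω))) :
    x ∈ agemoZ p n R := by
  have hle : powerClosure p n (S ⊓ Subgroup.centralizer (S : Set Ω)) ≤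
      (agemoZ p n R).map R.subtype := by
    show Subgroup.closure _ ≤ _
    rw [Subgroup.closure_le]
    rintro _ ⟨z, hz, rfl⟩
    have hzR := hZR hz
    refine ⟨⟨z, hzR⟩ ^ (p ^ n), Subgroup.subset_closure ⟨⟨z, hzR⟩, ?_, rfl⟩, rfl⟩
    rw [Subgroup.mem_center_iff]
    intro g
    apply Subtype.ext
    exact (Subgroup.mem_centralizer_iff.mp hz.2) g (hRS g.2)
  obtain ⟨w, hw, hwx⟩ := hle hx
  have : w = x := Subtype.ext hwx
  rw [← this]
  exact hw

theorem coe_mem_of_mem_agemoZ (p n : ℕ) (S : Subgroup Ω) (x : S) (hx : x ∈ agemoZ p n S) :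
    (x : Ω) ∈ powerClosure p n (S ⊓ Subgroup.centralizer (S : Set Ω)) := by
  have hle : agemoZ p n S ≤
      (powerClosure p n (S ⊓ Subgroup.centralizer (S : Set Ω))).comap S.subtype := by
    show Subgroup.closure _ ≤ _
    rw [Subgroup.closure_le]
    rintro _ ⟨u, hu, rfl⟩
    show ((u ^ (p ^ n) : S) : Ω) ∈ powerClosure p n (S ⊓ Subgroup.centralizer (S : Set Ω))
    apply Subgroup.subset_closure
    refine ⟨u, ⟨u.2, Subgroup.mem_centralizer_iff.mpr (fun g hg => ?_)⟩, rfl⟩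
    exact congrArg Subtype.val (Subgroup.mem_center_iff.mp hu ⟨g, hg⟩)
  exact hle hx

theorem aut_preserves_top (p n : ℕ) {S R : Subgroup Ω} (hR : R = S) (β : MulAut R) (x : R)
    (hx : (x : Ω) ∈ powerClosure p n (S ⊓ Subgroup.centralizer (S : Set Ω))) :
    ((β x : R) : Ω) ∈ powerClosure p n (S ⊓ Subgroup.centralizer (S : Set Ω)) := by
  subst hR
  exact coe_mem_of_mem_agemoZ p n _ _
    (agemoZ_invariant p n _ β _ (mem_agemoZ_of_mem p n le_rfl inf_le_left x hx))

theorem conj_fix_agemoZ {S : Subgroup Ω} (p n : ℕ) [Fact p.Prime]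
    (hcl : Subgroup.lowerCentralSeries S (n * (p - 1) + 1) = ⊥) {R : Subgroup Ω} (hRS : R ≤ S)
    {s : Ω} (hsS : s ∈ S) (hsp : s ^ p ∈ R) (τ : MulAut R)
    (hτ : ∀ x : R, ((τ x : R) : Ω) = s * x * s⁻¹) :
    ∀ w ∈ agemoZ p n R, τ w = w := by
  have hcen : ∀ u : Subgroup.center ↥R,
      (τ.toMonoidHom.comp (Subgroup.center ↥R).subtype) u ∈ Subgroup.center ↥R := by
    intro u
    have := Subgroup.characteristic_iff_map_eq.mp
      (inferInstance : (Subgroup.center ↥R).Characteristic) τ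
    have h2 : τ (u : R) ∈ (Subgroup.center ↥R).map τ.toMonoidHom := ⟨u, u.2, rfl⟩
    rw [this] at h2
    exact h2
  obtain ⟨t, ht⟩ : ∃ t : Subgroup.center ↥R →* Subgroup.center ↥R,
      ∀ u, (((t u : Subgroup.center ↥R) : R) : Ω) = s * u * s⁻¹ :=
    ⟨(τ.toMonoidHom.comp (Subgroup.center ↥R).subtype).codRestrict _ hcen, fun u => hτ u⟩
  have hiter : ∀ (k : ℕ) (u : Subgroup.center ↥R),
      (((t^[k] u : Subgroup.center ↥R) : R) : Ω) = s ^ k * u * (s ^ k)⁻¹ := by
    intro k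
    induction k with
    | zero => intro u; simp
    | succ k ih =>
      intro u
      rw [Function.iterate_succ_apply', ht, ih, pow_succ']
      group
  have htp : ∀ u, t^[p] u = u := by
    intro u
    apply Subtype.ext
    apply Subtype.ext
    rw [hiter]
    have := Subgroup.mem_center_iff.mp u.2 ⟨s ^ p, hsp⟩
    have h' : s ^ p * ((u : R) : Ω) = u * s ^ p := congrArg Subtype.val this
    rw [h', mul_assoc, mul_inv_cancel, mul_one]
  let _ : CommGroup (Subgroup.center ↥R) :=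
    { (inferInstance : Group (Subgroup.center ↥R)) with
      mul_comm := fun a b => Subtype.ext (Subgroup.mem_center_iff.mp b.2 a) }
  have key := PowId.fix_pow t p n (n * (p - 1) + 1) htp
    (fun k => {u : Subgroup.center ↥R | ((u : R) : Ω) ∈ Subgroup.lowerCentralSeries S k})
    (fun u : Subgroup.center ↥R => hRS (u : R).2) ?_ ?_ le_rfl
  · intro w hw
    induction hw using Subgroup.closure_induction with
    | mem x hx =>
      obtain ⟨u, hu, rfl⟩ := hx
      have h1 := key ⟨u, hu⟩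
      have h2 := congrArg (fun v : Subgroup.center ↥R => ((v : R) : Ω)) h1
      apply Subtype.ext
      rw [hτ]
      have h3 := ht (⟨u, hu⟩ ^ (p ^ n))
      exact h3.symm.trans h2
    | one => exact map_one τ
    | mul x y _ _ hx hy => rw [map_mul, hx, hy]
    | inv x _ hx => rw [map_inv, hx]
  · intro k u hu
    have h1 : ⁅((u : R) : Ω), s⁆ ∈ ⁅Subgroup.lowerCentralSeries S k, S⁆ :=
      Subgroup.commutator_mem_commutator hu hsS
    have h2 : (((t u * u⁻¹ : Subgroup.center ↥R) : R) : Ω) = ⁅((u : R) : Ω), s⁆⁻¹ := by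
      rw [commutatorElement_inv, commutatorElement_def]
      show (((t u : Subgroup.center ↥R) : R) : Ω) * (((u : R) : Ω))⁻¹ = _
      rw [ht]
    show (((t u * u⁻¹ : Subgroup.center ↥R) : R) : Ω) ∈ Subgroup.lowerCentralSeries S (k + 1)
    rw [h2]
    exact Subgroup.inv_mem _ h1
  · intro u hu
    have hu' : ((u : R) : Ω) ∈ Subgroup.lowerCentralSeries S (n * (p - 1) + 1) := hu
    rw [hcl, Subgroup.mem_bot] at hu'
    exact Subtype.ext (Subtype.ext hu')

/-- The automorphisms fixing `℧^n(Z(R))` pointwise. -/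
def fixer (p n : ℕ) (R : Subgroup Ω) : Subgroup (MulAut R) where
  carrier := {κ | ∀ w ∈ agemoZ p n R, κ w = w}
  mul_mem' := by
    intro a b ha hb w hw
    rw [MulAut.mul_apply, hb w hw, ha w hw]
  one_mem' := fun w _ => rfl
  inv_mem' := by
    intro a ha w hw
    have := ha w hw
    calc a⁻¹ w = a⁻¹ (a w) := by rw [this]
      _ = w := MulAut.inv_apply_self _ _ _

section main

variable {S : Subgroup Ω} [Finite S] {p : ℕ} [Fact p.Prime]

theorem aut_preserves_centric (hS : IsPGroup p S) (F : FusionSystem S) (n : ℕ)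
    (hcl : Subgroup.lowerCentralSeries S (n * (p - 1) + 1) = ⊥)
    {R : Subgroup Ω} (hRa : F.IsFullyAutomized p R) (hRr : F.IsReceptive R) (hne : R ≠ S)
    (hC : centralizerIn S R ≤ R)
    (IH : ∀ (Q₁ : Subgroup Ω) (φ : Q₁ →* Ω), φ ∈ F.Hom Q₁ → Nat.card R < Nat.card Q₁ →
      ∀ y : Q₁, (y : Ω) ∈ powerClosure p n (S ⊓ Subgroup.centralizer (S : Set Ω)) →
        φ y ∈ powerClosure p n (S ⊓ Subgroup.centralizer (S : Set Ω)))
    {α : MulAut R} (hα : α ∈ F.autGroup R) (x : R)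
    (hx : (x : Ω) ∈ powerClosure p n (S ⊓ Subgroup.centralizer (S : Set Ω))) :
    ((α x : R) : Ω) ∈ powerClosure p n (S ⊓ Subgroup.centralizer (S : Set Ω)) := by
  have hRS : R ≤ S := hRr.1
  haveI := finite_of_le hRS
  have hZR : S ⊓ Subgroup.centralizer (S : Set Ω) ≤ R := fun z hz =>
    hC ⟨hz.1, Subgroup.centralizer_le hRS hz.2⟩
  obtain ⟨-, Sy, hSy⟩ := hRa
  have hKn : ((fixer p n R).subgroupOf (F.autGroup R)).Normal := by
    constructor
    rintro ⟨κ, hκG⟩ hκ ⟨g, hgG⟩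
    rw [Subgroup.mem_subgroupOf] at hκ ⊢
    intro w hw
    show g (κ (g⁻¹ w)) = w
    rw [hκ _ (agemoZ_invariant p n R g⁻¹ w hw), MulAut.apply_inv_self]
  obtain ⟨P₀, hP₀⟩ := Cfsg.Agent.Lib.Helper64.Sylow.exists_sylow_subgroupOf_normal Sy
    ((fixer p n R).subgroupOf (F.autGroup R))
  have hfr := Sylow.normalizer_sup_eq_top P₀
  have hαmem : (⟨α, hα⟩ : F.autGroup R) ∈ (⊤ : Subgroup (F.autGroup R)) := trivial
  rw [← hfr] at hαmem
  obtain ⟨ν, hν, κ, hκ, hνκ⟩ := Subgroup.mem_sup_of_normal_right.mp hαmem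
  obtain ⟨s, hsS, hsN, hsR, hsp⟩ := exists_normalizer_pow_mem hS (lt_of_le_of_ne hRS hne)
  obtain ⟨τ, hτs⟩ : ∃ τ : MulAut R, ∀ x : R, ((τ x : R) : Ω) = s * x * s⁻¹ :=
    ⟨R.normalizerMonoidHom ⟨s, hsN⟩, fun x => rfl⟩
  have hτS : τ ∈ autInducedBy S R := Subgroup.subset_closure ⟨s, hsS, hτs⟩
  have hτG : τ ∈ F.autGroup R := autInducedBy_le_autGroup F hRS hτS
  have hτK : τ ∈ fixer p n R := conj_fix_agemoZ p n hcl hRS hsS hsp τ hτs
  have hτP : (⟨τ, hτG⟩ : F.autGroup R) ∈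
      (P₀ : Subgroup ((fixer p n R).subgroupOf (F.autGroup R))).map
        ((fixer p n R).subgroupOf (F.autGroup R)).subtype := by
    refine ⟨⟨⟨τ, hτG⟩, Subgroup.mem_subgroupOf.mpr hτK⟩, ?_, rfl⟩
    rw [SetLike.mem_coe, hP₀, Subgroup.mem_subgroupOf]
    show (⟨τ, hτG⟩ : F.autGroup R) ∈ (Sy : Subgroup _)
    rw [hSy, Subgroup.mem_subgroupOf]
    exact hτS
  have hconj := (Subgroup.mem_normalizer_iff.mp hν ⟨τ, hτG⟩).mp hτP
  obtain ⟨⟨y, hyN⟩, hyP, hyeq⟩ := hconj
  have hyS : (y : F.autGroup R) ∈ (Sy : Subgroup _) := by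
    rw [SetLike.mem_coe, hP₀] at hyP
    exact Subgroup.mem_subgroupOf.mp hyP
  rw [hSy, Subgroup.mem_subgroupOf] at hyS
  have hyeq' : ((ν * ⟨τ, hτG⟩ * ν⁻¹ : F.autGroup R) : MulAut R) ∈ autInducedBy S R := by
    have : (y : F.autGroup R) = ν * ⟨τ, hτG⟩ * ν⁻¹ := hyeq
    rw [← this]
    exact hyS
  obtain ⟨h, hhS, hh⟩ := (mem_autInducedBy_iff S R _).mp hyeq'
  have hνext : (ν : MulAut R) ∈ extSet F R := by
    refine mem_extSet_of_conj F hRr ν.2 hsS hsN hsR hhS ?_
    intro x hx'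
    have h1 := hh ((ν : MulAut R) x)
    have e : ((ν * ⟨τ, hτG⟩ * ν⁻¹ : F.autGroup R) : MulAut R) ((ν : MulAut R) x) =
        (ν : MulAut R) (τ x) := by
      show (ν : MulAut R) (τ ((ν : MulAut R)⁻¹ ((ν : MulAut R) x))) = _
      rw [MulAut.inv_apply_self]
    rw [e] at h1
    have e2 : (⟨s * x * s⁻¹, hx'⟩ : R) = τ x := Subtype.ext (hτs x).symm
    rw [e2]
    exact h1
  obtain ⟨Q₁, hRQ, φ, hφ, hφν⟩ := hνext
  have hQS : Q₁ ≤ S := (F.le_of_mem hφ).1
  haveI := finite_of_le hQS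
  have hlt : Nat.card R < Nat.card Q₁ := by
    by_contra hcon
    exact hRQ.ne (Subgroup.eq_of_le_of_card_ge hRQ.le (not_lt.mp hcon))
  have hxW := mem_agemoZ_of_mem p n hRS hZR x hx
  have hκx : (κ : MulAut R) x = x := (Subgroup.mem_subgroupOf.mp hκ) x hxW
  have hαx : α x = (ν : MulAut R) x := by
    have : α = (ν : MulAut R) * (κ : MulAut R) := by
      rw [← Subgroup.coe_mul, hνκ]
    rw [this, MulAut.mul_apply, hκx]
  rw [hαx, ← hφν x]
  exact IH Q₁ φ hφ hlt (Subgroup.inclusion hRQ.le x) hx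

theorem iso_preserves (hS : IsPGroup p S) (F : FusionSystem S) (hF : F.IsSaturated p) (n : ℕ)
    (hcl : Subgroup.lowerCentralSeries S (n * (p - 1) + 1) = ⊥) :
    ∀ (P Q' : Subgroup Ω) (e : P ≃* Q'), IsIso F e → ∀ x : P,
      ((x : Ω) ∈ powerClosure p n (S ⊓ Subgroup.centralizer (S : Set Ω)) ↔
        ((e x : Q') : Ω) ∈ powerClosure p n (S ⊓ Subgroup.centralizer (S : Set Ω))) := by
  apply iso_induction hS F hF (fun P Q' e => ∀ x : P,
      ((x : Ω) ∈ powerClosure p n (S ⊓ Subgroup.centralizer (S : Set Ω)) ↔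
        ((e x : Q') : Ω) ∈ powerClosure p n (S ⊓ Subgroup.centralizer (S : Set Ω))))
  · intro P Q' e _ h y
    have := h (e.symm y)
    rw [e.apply_symm_apply] at this
    exact this.symm
  · intro P Q' R e₁ e₂ _ _ h₁ h₂ x
    exact (h₁ x).trans (h₂ (e₁ x))
  · intro P Q' R R' e hR e' _ h he' x
    rw [he' x]
    exact h ⟨x, hR x.2⟩
  · intro R hRa hRr IH α hα
    have hstar : ∀ β ∈ F.autGroup R, ∀ x : R,
        (x : Ω) ∈ powerClosure p n (S ⊓ Subgroup.centralizer (S : Set Ω)) →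
        ((β x : R) : Ω) ∈ powerClosure p n (S ⊓ Subgroup.centralizer (S : Set Ω)) := by
      intro β hβ x hx
      by_cases hRtop : R = S
      · exact aut_preserves_top p n hRtop β x hx
      · by_cases hC : centralizerIn S R ≤ R
        · refine aut_preserves_centric hS F n hcl hRa hRr hRtop hC ?_ hβ x hx
          intro Q₁ φ hφ hlt y hy
          exact (IH _ _ _ (isIso_ofInjective hφ) hlt y).mp hy
        · obtain ⟨Q₁, hRQ, φ, hφ, hφβ⟩ := mem_extSet_of_not_centralizer_le F hRr hC hβ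
          have hQS : Q₁ ≤ S := (F.le_of_mem hφ).1
          haveI := finite_of_le hQS
          have hlt : Nat.card R < Nat.card Q₁ := by
            by_contra hcon
            exact hRQ.ne (Subgroup.eq_of_le_of_card_ge hRQ.le (not_lt.mp hcon))
          rw [← hφβ x]
          exact (IH _ _ _ (isIso_ofInjective hφ) hlt (Subgroup.inclusion hRQ.le x)).mp hx
    intro x
    constructor
    · exact hstar α hα x
    · intro h
      have := hstar α⁻¹ (Subgroup.inv_mem _ hα) (α x) h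
      rwa [MulAut.inv_apply_self] at this

theorem agemo_center_normal (hS : IsPGroup p S) (F : FusionSystem S) (hF : F.IsSaturated p)
    (n : ℕ) (hcl : Subgroup.lowerCentralSeries S (n * (p - 1) + 1) = ⊥) :
    F.IsNormal (powerClosure p n (S ⊓ Subgroup.centralizer (S : Set Ω))) := by
  have key := iso_preserves hS F hF n hcl
  rw [Cfsg.Agent.S5087.result p hS F hF]
  intro P hP
  have hQZ : powerClosure p n (S ⊓ Subgroup.centralizer (S : Set Ω)) ≤
      S ⊓ Subgroup.centralizer (S : Set Ω) := by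
    show Subgroup.closure _ ≤ _
    rw [Subgroup.closure_le]
    rintro _ ⟨z, hz, rfl⟩
    exact Subgroup.pow_mem _ hz _
  have hPS : P ≤ S := hP.elim (fun h => h.le) (fun hE => hE.1.1)
  have hZP : S ⊓ Subgroup.centralizer (S : Set Ω) ≤ P := by
    rcases hP with h | hE
    · rw [h]; exact inf_le_left
    · exact fun z hz => (hE.1.2 P (isConj_refl F hE.1.1))
        ⟨hz.1, Subgroup.centralizer_le hE.1.1 hz.2⟩
  refine ⟨hQZ.trans hZP, fun α hα => map_eq_of_forall_mem (F.autGroup P) _ ?_ α hα⟩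
  intro β hβ x hx
  rw [Subgroup.mem_subgroupOf] at hx ⊢
  exact (key P P β ((mem_autGroup_iff_isIso F hPS β).mp hβ) x).mp hx

end main

end Cfsg.Agent.H84.FusClass
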