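import Cfsg.Agent.H84.FusConstr
import Cfsg.Agent.S5118

set_option autoImplicit false

namespace Cfsg.Agent.H84

open Cfsg Cfsg.FusionSystem
open Cfsg.Agent.Lib.Helper87.FSBasic Cfsg.Agent.Lib.Helper87.FSSat
  Cfsg.Agent.Lib.Helper87.FSNormal
open Cfsg.Agent.Lib.Helper33.Conj

/-- A saturated subsystem on a strongly closed subgroup of a constrained system is
constrained. -/
theorem constrained_of_subsystem {Ω : Type*} [Group Ω] {S : Subgroup Ω} [Finite S] {p : ℕ}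
    [Fact p.Prime] (hS : IsPGroup p S) (F : FusionSystem S)
    (hF : F.IsConstrained p) {T : Subgroup Ω} (E : FusionSystem T)
    (hEsat : E.IsSaturated p) (hEF : E.IsSubsystemOf F) (hTsc : F.StronglyClosed T) :
    E.IsConstrained p := by
  obtain ⟨hFsat, Q₀, hQ₀n, hQ₀c⟩ := hF
  have hQn : F.IsNormal F.core := Cfsg.Agent.S5145.result F
  have hQ₀Q : Q₀ ≤ F.core := le_sSup hQ₀n
  have hCQ : centralizerIn S F.core ≤ F.core := by
    intro x hx
    apply hQ₀Q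
    apply hQ₀c.2 Q₀ (isConj_refl F hQ₀c.1)
    exact ⟨hx.1, Subgroup.centralizer_le (SetLike.coe_subset_coe.mpr hQ₀Q) hx.2⟩
  exact constrained_of_sub hS F hFsat hQn hCQ (fun X hX => le_sSup hX) E hEsat hEF hTsc

theorem fusionSystem_ext {Ω : Type*} [Group Ω] {S : Subgroup Ω} (F₁ F₂ : FusionSystem S)
    (h : ∀ P, F₁.Hom P = F₂.Hom P) : F₁ = F₂ := by
  cases F₁
  cases F₂
  simp only [FusionSystem.mk.injEq]
  funext P
  exact h P

variable {G : Type*} [Group G]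

theorem fusionSystemOfSubgroup_top (S : Subgroup G) :
    fusionSystemOfSubgroup ⊤ S le_top = groupFusionSystem S := by
  apply fusionSystem_ext
  intro P
  ext φ
  constructor
  · rintro ⟨h1, h2, g, -, hg⟩
    exact ⟨h1, h2, g, hg⟩
  · rintro ⟨h1, h2, g, hg⟩
    exact ⟨h1, h2, g, Subgroup.mem_top g, hg⟩

theorem constrained_cast {p : ℕ} {H T T' : Subgroup G} (h : T = T') (hT : T ≤ H) (hT' : T' ≤ H)
    (hc : (fusionSystemOfSubgroup H T hT).IsConstrained p) :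
    (fusionSystemOfSubgroup H T' hT').IsConstrained p := by
  subst h
  exact hc

/-- One step down a subnormal chain. -/
theorem constrained_step [Finite G] {p : ℕ} [Fact p.Prime] {K T H : Subgroup G} (hTK : T ≤ K)
    (hT : IsSylIn p T K) (hF : (fusionSystemOfSubgroup K T hTK).IsConstrained p)
    (hHK : H ≤ K) (hn : K ≤ Subgroup.normalizer (H : Set G)) :
    IsSylIn p (T ⊓ H) H ∧ (fusionSystemOfSubgroup H (T ⊓ H) inf_le_right).IsConstrained p := by
  have hsyl : IsSylIn p (T ⊓ H) H := Cfsg.Agent.S5118.sylIn_inf_normal hT hHK hn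
  refine ⟨hsyl, ?_⟩
  have hfin : Finite T := inferInstance
  refine constrained_of_subsystem hT.2.1 (fusionSystemOfSubgroup K T hTK) hF _
    (Cfsg.Agent.S5118.saturated_rel H _ inf_le_right hsyl) ?_ ?_
  · rintro P φ ⟨hPT, hφT, g, hgH, hg⟩
    exact ⟨hPT.trans inf_le_left, fun x => (hφT x).1, g, hHK hgH, hg⟩
  · refine ⟨inf_le_left, ?_⟩
    rintro R hR φ ⟨-, hφT, g, hgK, hg⟩ x
    refine ⟨hφT x, ?_⟩
    rw [hg]
    exact (Subgroup.mem_normalizer_iff.mp (hn hgK) _).mp (hR x.2).2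

/-- Constrainedness passes to subnormal subgroups (inside the ambient group). -/
theorem constrained_subnormal [Finite G] {p : ℕ} [Fact p.Prime] (S : Sylow p G)
    (hF : (groupFusionSystem (S : Subgroup G)).IsConstrained p) (H : Subgroup G)
    (hH : H.IsSubnormal) :
    IsSylIn p ((S : Subgroup G) ⊓ H) H ∧
      (fusionSystemOfSubgroup H ((S : Subgroup G) ⊓ H) inf_le_right).IsConstrained p := by
  induction hH with
  | top =>
    have e : (S : Subgroup G) ⊓ ⊤ = S := inf_top_eq _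
    refine ⟨?_, ?_⟩
    · rw [e]
      exact isSylIn_of_sylow S le_top
    · refine constrained_cast e.symm le_top _ ?_
      rw [fusionSystemOfSubgroup_top]
      exact hF
  | step H K hHK hK hN ih =>
    obtain ⟨hsylK, hconK⟩ := ih
    have hn : K ≤ Subgroup.normalizer (H : Set G) :=
      (Subgroup.normal_subgroupOf_iff_le_normalizer hHK).mp hN
    obtain ⟨h1, h2⟩ := constrained_step inf_le_right hsylK hconK hHK hn
    have e : (S : Subgroup G) ⊓ K ⊓ H = (S : Subgroup G) ⊓ H := by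
      rw [inf_assoc, inf_eq_right.mpr hHK]
    refine ⟨?_, constrained_cast e _ _ h2⟩
    rw [← e]
    exact h1

/-! ### Transport from `F_T(H)` inside `G` to the fusion system of the group `H` -/

theorem isNormal_transport {H T : Subgroup G} (hTH : T ≤ H) (S' : Subgroup ↥H)
    (hS' : ∀ x : ↥H, x ∈ S' ↔ (x : G) ∈ T) {Q : Subgroup G}
    (hQ : (fusionSystemOfSubgroup H T hTH).IsNormal Q) :
    (groupFusionSystem S').IsNormal (Q.subgroupOf H) := by
  obtain ⟨hQT, hQ⟩ := hQ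
  refine ⟨fun x hx => (hS' x).mpr (hQT (Subgroup.mem_subgroupOf.mp hx)), ?_⟩
  rintro P' φ' ⟨hP'S, hφ'S, h, hh⟩
  have hPT : P'.map H.subtype ≤ T := by
    rintro _ ⟨y, hy, rfl⟩
    exact (hS' y).mp (hP'S hy)
  have hφ : conjHom (P'.map H.subtype) (h : G) ∈
      (fusionSystemOfSubgroup H T hTH).Hom (P'.map H.subtype) := by
    refine ⟨hPT, ?_, h, h.2, fun x => rfl⟩
    rintro ⟨_, y, hy, rfl⟩
    have h1 := (hS' _).mp (hφ'S ⟨y, hy⟩)
    rw [hh ⟨y, hy⟩] at h1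
    exact h1
  obtain ⟨ψ, ⟨hψle, hψT, k, hk, hkψ⟩, hext, hmap⟩ := hQ _ _ hφ
  have hQH : Q ≤ H := hQT.trans hTH
  have hsup : ∀ z : ↥H, z ∈ P' ⊔ Q.subgroupOf H → (z : G) ∈ P'.map H.subtype ⊔ Q := by
    intro z hz
    have h1 : (z : G) ∈ (P' ⊔ Q.subgroupOf H).map H.subtype := ⟨z, hz, rfl⟩
    rw [Subgroup.map_sup, Subgroup.map_subgroupOf_eq_of_le hQH] at h1
    exact h1
  have hk' : ∀ (z : ↥H) (hz : z ∈ P' ⊔ Q.subgroupOf H),
      k * (z : G) * k⁻¹ = ψ ⟨(z : G), hsup z hz⟩ :=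
    fun z hz => (hkψ ⟨(z : G), hsup z hz⟩).symm
  refine ⟨conjHom (P' ⊔ Q.subgroupOf H) ⟨k, hk⟩, ⟨?_, ?_, ⟨k, hk⟩, fun z => rfl⟩, ?_, ?_⟩
  · exact sup_le hP'S (fun x hx => (hS' x).mpr (hQT (Subgroup.mem_subgroupOf.mp hx)))
  · intro z
    apply (hS' _).mpr
    show k * ((z : ↥H) : G) * k⁻¹ ∈ T
    rw [hk' z.1 z.2]
    exact hψT _
  · intro x
    apply Subtype.ext
    show k * ((x : ↥H) : G) * k⁻¹ = ((φ' x : ↥H) : G)
    have h1 := hext ⟨((x : ↥H) : G), ⟨(x : ↥H), x.2, rfl⟩⟩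
    rw [hkψ] at h1
    rw [hh x]
    exact h1
  · apply le_antisymm
    · rintro _ ⟨z, hz, rfl⟩
      have hzQ : ((z : ↥H) : G) ∈ Q := Subgroup.mem_subgroupOf.mp (Subgroup.mem_subgroupOf.mp hz)
      apply Subgroup.mem_subgroupOf.mpr
      show k * ((z : ↥H) : G) * k⁻¹ ∈ Q
      rw [hk' z.1 z.2]
      have h2 : ψ ⟨((z : ↥H) : G), hsup z.1 z.2⟩ ∈
          (Q.subgroupOf (P'.map H.subtype ⊔ Q)).map ψ :=
        ⟨_, Subgroup.mem_subgroupOf.mpr hzQ, rfl⟩
      rwa [hmap] at h2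
    · intro q hq
      have hqQ : (q : G) ∈ Q := Subgroup.mem_subgroupOf.mp hq
      rw [← hmap] at hqQ
      obtain ⟨z₀, hz₀, hz₀q⟩ := hqQ
      have hz₀Q : (z₀ : G) ∈ Q := Subgroup.mem_subgroupOf.mp hz₀
      have hz₀' : (⟨(z₀ : G), hQH hz₀Q⟩ : ↥H) ∈ P' ⊔ Q.subgroupOf H :=
        Subgroup.mem_sup_right (Subgroup.mem_subgroupOf.mpr hz₀Q)
      refine ⟨⟨⟨(z₀ : G), hQH hz₀Q⟩, hz₀'⟩, Subgroup.mem_subgroupOf.mpr
        (Subgroup.mem_subgroupOf.mpr hz₀Q), ?_⟩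
      apply Subtype.ext
      show k * (z₀ : G) * k⁻¹ = (q : G)
      rw [← hz₀q, hkψ]

theorem isCentric_transport {H T : Subgroup G} (hTH : T ≤ H) (S' : Subgroup ↥H)
    (hS' : ∀ x : ↥H, x ∈ S' ↔ (x : G) ∈ T) {Q : Subgroup G}
    (hQ : (fusionSystemOfSubgroup H T hTH).IsCentric Q) :
    (groupFusionSystem S').IsCentric (Q.subgroupOf H) := by
  obtain ⟨hQT, hQ⟩ := hQ
  have hQH : Q ≤ H := hQT.trans hTH
  refine ⟨fun x hx => (hS' x).mpr (hQT (Subgroup.mem_subgroupOf.mp hx)), ?_⟩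
  rintro Q'' ⟨φ', ⟨-, hφ'S, h, hh⟩, hrange⟩
  have hconj : (fusionSystemOfSubgroup H T hTH).IsConj Q (Q''.map H.subtype) := by
    refine ⟨conjHom Q (h : G), ⟨hQT, ?_, h, h.2, fun x => rfl⟩, ?_⟩
    · intro x
      have hx' : (⟨(x : G), hQH x.2⟩ : ↥H) ∈ Q.subgroupOf H := Subgroup.mem_subgroupOf.mpr x.2
      have h1 := (hS' _).mp (hφ'S ⟨_, hx'⟩)
      rw [hh ⟨_, hx'⟩] at h1
      exact h1
    · apply le_antisymm
      · rintro _ ⟨x, rfl⟩
        have hx' : (⟨(x : G), hQH x.2⟩ : ↥H) ∈ Q.subgroupOf H := Subgroup.mem_subgroupOf.mpr x.2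
        have h1 : φ' ⟨_, hx'⟩ ∈ Q'' := by
          rw [← hrange]; exact ⟨_, rfl⟩
        refine ⟨φ' ⟨_, hx'⟩, h1, ?_⟩
        rw [hh ⟨_, hx'⟩]
        rfl
      · rintro _ ⟨y, hy, rfl⟩
        rw [← hrange] at hy
        obtain ⟨x, rfl⟩ := hy
        refine ⟨⟨((x : ↥H) : G), Subgroup.mem_subgroupOf.mp x.2⟩, ?_⟩
        rw [hh x]
        rfl
  have hc := hQ _ hconj
  intro x hx
  have h1 : (x : G) ∈ centralizerIn T (Q''.map H.subtype) := by
    refine ⟨(hS' x).mp hx.1, ?_⟩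
    show (x : G) ∈ Subgroup.centralizer ((Q''.map H.subtype : Subgroup G) : Set G)
    rw [Subgroup.mem_centralizer_iff]
    rintro _ ⟨y, hy, rfl⟩
    have h2 := Subgroup.mem_centralizer_iff.mp hx.2 y hy
    exact congrArg (fun z : ↥H => (z : G)) h2
  obtain ⟨y, hy, hyx⟩ := hc h1
  have e : y = x := Subtype.ext hyx
  rw [← e]
  exact hy

/-- Constrainedness passes to subnormal subgroups, for the fusion system of the subgroup as a
group. -/
theorem constrained_subnormal_group [Finite G] {p : ℕ} [Fact p.Prime] (S : Sylow p G)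
    (hF : (groupFusionSystem (S : Subgroup G)).IsConstrained p) (H : Subgroup G)
    (hH : H.IsSubnormal) :
    (groupFusionSystem ((S : Subgroup G).subgroupOf H)).IsConstrained p ∧
      ∃ P : Sylow p ↥H, (P : Subgroup ↥H) = (S : Subgroup G).subgroupOf H := by
  obtain ⟨hsyl, -, Q, hQn, hQc⟩ := constrained_subnormal S hF H hH
  have hS' : ∀ x : ↥H, x ∈ (S : Subgroup G).subgroupOf H ↔ (x : G) ∈ (S : Subgroup G) ⊓ H :=
    fun x => ⟨fun h => ⟨Subgroup.mem_subgroupOf.mp h, x.2⟩, fun h => Subgroup.mem_subgroupOf.mpr h.1⟩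
  have h1 : IsPGroup p ↥((S : Subgroup G).subgroupOf H) := S.2.comap_subtype
  have h2 : ¬ p ∣ ((S : Subgroup G).subgroupOf H).index := by
    have h3 := hsyl.2.2
    rw [Subgroup.inf_relIndex_right] at h3
    exact h3
  have hP : ((h1.toSylow h2 : Sylow p ↥H) : Subgroup ↥H) = (S : Subgroup G).subgroupOf H := rfl
  refine ⟨⟨?_, Q.subgroupOf H, isNormal_transport inf_le_right _ hS' hQn,
    isCentric_transport inf_le_right _ hS' hQc⟩, h1.toSylow h2, hP⟩
  have h4 := Cfsg.Agent.S5076.result p (h1.toSylow h2)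
  rw [hP] at h4
  exact h4

end Cfsg.Agent.H84
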